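import Cfsg.Agent.H97.Semisimple

/-! Numbers of subspaces, complements and flags, and primes not dividing them. -/

namespace Cfsg.Agent.H97

open Module

variable {F V : Type*} [Field F] [Finite F] [AddCommGroup V] [Module F V] [FiniteDimensional F V]

/-- The number of `m`-subspaces times the number of bases of one of them. -/
theorem card_subspace_mul {m : ℕ} (hm : m ≤ finrank F V) :
    Nat.card {W : Submodule F V // finrank F W = m} * ∏ j : Fin m, (Nat.card F ^ m - Nat.card F ^ (j : ℕ)) =
      ∏ j : Fin m, (Nat.card F ^ finrank F V - Nat.card F ^ (j : ℕ)) := by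
  haveI := Fintype.ofFinite F
  haveI : Finite V := Module.finite_of_finite F
  haveI : Finite (Submodule F V) := Finite.of_injective _ SetLike.coe_injective
  haveI := Fintype.ofFinite {W : Submodule F V // finrank F W = m}
  have hW : ∀ W : {W : Submodule F V // finrank F W = m},
      Nat.card {s : Fin m → W.1 // LinearIndependent F s} =
        ∏ j : Fin m, (Nat.card F ^ m - Nat.card F ^ (j : ℕ)) := fun W => by
    rw [card_linearIndependent (K := F) (V := W.1) W.2.ge, W.2, Nat.card_eq_fintype_card]
  have e : (Σ W : {W : Submodule F V // finrank F W = m}, {s : Fin m → W.1 // LinearIndependent F s}) ≃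
      {s : Fin m → V // LinearIndependent F s} := by
    refine Equiv.ofBijective (fun p => ⟨fun j => ((p.2.1 j : p.1.1) : V),
      p.2.2.map' p.1.1.subtype (Submodule.ker_subtype _)⟩) ⟨?_, ?_⟩
    · rintro ⟨⟨W, hWm⟩, s, hs⟩ ⟨⟨W', hW'⟩, s', hs'⟩ heq
      have h0 : (fun j => ((s j : W) : V)) = fun j => ((s' j : W') : V) := congrArg Subtype.val heq
      have hspan : ∀ (U : Submodule F V) (hU : finrank F U = m) (t : Fin m → U), LinearIndependent F t →
          Submodule.span F (Set.range fun j => (t j : V)) = U := by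
        intro U hU t ht
        refine Submodule.eq_of_le_of_finrank_eq (Submodule.span_le.2 (by rintro _ ⟨j, rfl⟩; exact (t j).2)) ?_
        rw [finrank_span_eq_card (R := F) (b := fun j => (t j : V)) (ht.map' U.subtype (Submodule.ker_subtype _)),
          Fintype.card_fin, hU]
      have hWW : W = W' := by rw [← hspan W hWm s hs, h0, hspan W' hW' s' hs']
      subst hWW
      have : s = s' := funext fun j => Subtype.ext (congr_fun h0 j)
      subst this
      rfl
    · rintro ⟨t, ht⟩
      refine ⟨⟨⟨Submodule.span F (Set.range t), by rw [finrank_span_eq_card ht, Fintype.card_fin]⟩,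
        fun j => ⟨t j, Submodule.subset_span ⟨j, rfl⟩⟩, ?_⟩, rfl⟩
      exact LinearIndependent.of_comp (Submodule.span F (Set.range t)).subtype ht
  have h := Nat.card_congr e
  rw [Nat.card_sigma, Finset.sum_congr rfl (fun W _ => hW W), Finset.sum_const, Finset.card_univ,
    ← Nat.card_eq_fintype_card, smul_eq_mul, card_linearIndependent (K := F) (V := V) hm,
    ← Nat.card_eq_fintype_card] at h
  exact h

omit [Finite F] in
/-- `q ^ a * (q ^ b - 1) = q ^ (a + b) - q ^ a`. -/
theorem pow_mul_pow_sub_one (q a b : ℕ) : q ^ a * (q ^ b - 1) = q ^ (a + b) - q ^ a := by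
  rw [Nat.mul_sub, mul_one, ← pow_add]

/-- A prime other than the characteristic divides the number of `m`-subspaces only for suitable `ord_r q`. -/
theorem exists_dvd_of_dvd_card_subspace {r : ℕ} [Fact r.Prime] (hr : (r : F) ≠ 0) {m : ℕ}
    (hm : m ≤ finrank F V) (h : r ∣ Nat.card {W : Submodule F V // finrank F W = m}) :
    ∃ j < m, orderOf (Nat.card F : ZMod r) ∣ finrank F V - j := by
  have h1 := dvd_mul_of_dvd_left h (∏ j : Fin m, (Nat.card F ^ m - Nat.card F ^ (j : ℕ)))
  rw [card_subspace_mul hm] at h1
  obtain ⟨j, -, hj⟩ := (Fact.out : r.Prime).prime.exists_mem_finset_dvd h1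
  have hjm := j.2
  refine ⟨j, j.2, orderOf_dvd_of_modEq ?_⟩
  have he : Nat.card F ^ finrank F V - Nat.card F ^ (j : ℕ) =
      Nat.card F ^ (j : ℕ) * (Nat.card F ^ (finrank F V - j) - 1) := by
    rw [pow_mul_pow_sub_one, Nat.add_sub_cancel' (by omega)]
  rw [he] at hj
  rcases (Fact.out : r.Prime).dvd_mul.1 hj with h2 | h2
  · exact absurd ((ZMod.natCast_eq_zero_iff _ _).2 ((Fact.out : r.Prime).dvd_of_dvd_pow h2))
      (natCard_ne_zero_zmod hr)
  · exact ((Nat.modEq_iff_dvd' (Nat.one_le_pow _ _ Nat.card_pos)).2 h2).symm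

/-- The characteristic does not divide the number of `m`-subspaces. -/
theorem not_dvd_card_subspace_char {p : ℕ} [Fact p.Prime] [CharP F p] {m : ℕ} (hm : m ≤ finrank F V) :
    ¬ p ∣ Nat.card {W : Submodule F V // finrank F W = m} := by
  intro h
  haveI := Fintype.ofFinite F
  have hp : p ∣ Nat.card F := by
    obtain ⟨e, -, he⟩ := FiniteField.card F p
    rw [Nat.card_eq_fintype_card, he]; exact dvd_pow_self p e.ne_zero
  have key := card_subspace_mul (F := F) (V := V) hm
  have hsplit : ∀ d, m ≤ d → ∏ j : Fin m, (Nat.card F ^ d - Nat.card F ^ (j : ℕ)) =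
      (∏ j : Fin m, Nat.card F ^ (j : ℕ)) * ∏ j : Fin m, (Nat.card F ^ (d - j) - 1) := by
    intro d hd
    rw [← Finset.prod_mul_distrib]
    refine Finset.prod_congr rfl fun j _ => ?_
    have := j.2
    rw [pow_mul_pow_sub_one, Nat.add_sub_cancel' (by omega)]
  rw [hsplit m le_rfl, hsplit _ hm, mul_left_comm] at key
  have key2 := Nat.eq_of_mul_eq_mul_left (Finset.prod_pos fun j _ => pow_pos Nat.card_pos _) key
  have h1 := dvd_mul_of_dvd_left h (∏ j : Fin m, (Nat.card F ^ (m - j) - 1))
  rw [key2] at h1
  obtain ⟨j, -, hj⟩ := (Fact.out : p.Prime).prime.exists_mem_finset_dvd h1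
  have h2 : p ∣ Nat.card F ^ (finrank F V - j) := hp.trans (dvd_pow_self _ (by have := j.2; omega))
  have h3 : 1 ≤ Nat.card F ^ (finrank F V - j) := Nat.one_le_pow _ _ Nat.card_pos
  have h4 := Nat.dvd_sub h2 hj
  rw [Nat.sub_sub_self h3] at h4
  exact (Fact.out : p.Prime).not_dvd_one h4

omit [Finite F] in
/-- Subspaces of dimension `m` and of codimension `m` are equally many. -/
theorem card_subspace_symm {m : ℕ} (hm : m ≤ finrank F V) :
    Nat.card {W : Submodule F V // finrank F W = finrank F V - m} =
      Nat.card {W : Submodule F V // finrank F W = m} := by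
  have hV : finrank F (Dual F V) = finrank F V := Subspace.dual_finrank_eq
  have e1 : {W : Submodule F V // finrank F W = finrank F V - m} ≃
      {W : Submodule F (Dual F V) // finrank F W = m} := by
    refine (Subspace.orderIsoFiniteDimensional.toEquiv.trans OrderDual.ofDual).subtypeEquiv fun W => ?_
    have h := Subspace.finrank_add_finrank_dualAnnihilator_eq W
    show finrank F W = finrank F V - m ↔ finrank F W.dualAnnihilator = m
    omega
  let e2 : Dual F V ≃ₗ[F] V := LinearEquiv.ofFinrankEq _ _ hV
  have e3 : {W : Submodule F (Dual F V) // finrank F W = m} ≃ {W : Submodule F V // finrank F W = m} := by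
    refine (Submodule.orderIsoMapComap e2).toEquiv.subtypeEquiv fun W => ?_
    show finrank F W = m ↔ finrank F (W.map (e2 : Dual F V →ₗ[F] V)) = m
    rw [LinearEquiv.finrank_map_eq]
  exact Nat.card_congr (e1.trans e3)

/-- Divisors of the number of complementary pairs that are prime to `q` divide the number of subspaces. -/
theorem dvd_card_subspace_of_dvd_card_pairs {r : ℕ} [Fact r.Prime] (hr : (r : F) ≠ 0) {m : ℕ}
    (h : r ∣ Nat.card {P : Submodule F V × Submodule F V // IsCompl P.1 P.2 ∧ finrank F P.1 = m}) :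
    r ∣ Nat.card {W : Submodule F V // finrank F W = m} := by
  haveI : Finite V := Module.finite_of_finite F
  haveI : Finite (Submodule F V) := Finite.of_injective _ SetLike.coe_injective
  haveI := Fintype.ofFinite {W : Submodule F V // finrank F W = m}
  let e : {P : Submodule F V × Submodule F V // IsCompl P.1 P.2 ∧ finrank F P.1 = m} ≃
      Σ W : {W : Submodule F V // finrank F W = m}, {U : Submodule F V // IsCompl W.1 U} :=
    { toFun := fun P => ⟨⟨P.1.1, P.2.2⟩, P.1.2, P.2.1⟩
      invFun := fun p => ⟨(p.1.1, p.2.1), p.2.2, p.1.2⟩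
      left_inv := fun _ => rfl
      right_inv := fun _ => rfl }
  have hpow : ∀ W : {W : Submodule F V // finrank F W = m},
      Nat.card {U : Submodule F V // IsCompl W.1 U} = Nat.card F ^ ((finrank F V - m) * m) := by
    intro W
    obtain ⟨U₀, hU₀⟩ := Submodule.exists_isCompl W.1
    let f₀ := W.1.projectionOnto U₀ hU₀
    have hf₀ : ∀ x : W.1, f₀ x = x := fun x => Submodule.projectionOnto_apply_left hU₀ x
    let e1 : {f : V →ₗ[F] W.1 // ∀ x : W.1, f x = x} ≃ (U₀ →ₗ[F] W.1) :=
      { toFun := fun f => f.1.comp U₀.subtype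
        invFun := fun g => ⟨f₀ + g.comp (U₀.projectionOnto W.1 hU₀.symm), fun x => by
          simp [hf₀, Submodule.projectionOnto_apply_right hU₀.symm x]⟩
        left_inv := fun f => Subtype.ext (LinearMap.ext fun v => by
          simp only [LinearMap.add_apply, LinearMap.comp_apply, Submodule.subtype_apply, f₀]
          conv_rhs => rw [← Submodule.projection_add_projection_eq_self hU₀ v, map_add,
            Submodule.projection_apply, Submodule.projection_apply, f.2])
        right_inv := fun g => LinearMap.ext fun u => by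
          simp [f₀, Submodule.projectionOnto_apply_right hU₀ u,
            Submodule.projectionOnto_apply_left hU₀.symm u] }
    rw [Nat.card_congr (W.1.isComplEquivProj.trans e1),
      Module.natCard_eq_pow_finrank (K := F) (V := U₀ →ₗ[F] W.1), Module.finrank_linearMap]
    have := Submodule.finrank_add_eq_of_isCompl hU₀
    rw [W.2] at this
    rw [W.2, show finrank F U₀ = finrank F V - m by omega]
  rw [Nat.card_congr e, Nat.card_sigma, Finset.sum_congr rfl (fun W _ => hpow W), Finset.sum_const,
    Finset.card_univ, ← Nat.card_eq_fintype_card, smul_eq_mul] at h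
  refine ((Fact.out : r.Prime).dvd_mul.1 h).resolve_right fun h2 => ?_
  exact natCard_ne_zero_zmod hr ((ZMod.natCast_eq_zero_iff _ _).2 ((Fact.out : r.Prime).dvd_of_dvd_pow h2))

/-- A prime dividing the number of flags divides the number of larger or of smaller subspaces. -/
theorem dvd_card_of_dvd_card_flags {r : ℕ} (hrp : r.Prime) {m k : ℕ}
    (h : r ∣ Nat.card {P : Submodule F V × Submodule F V //
      P.1 ≤ P.2 ∧ finrank F P.1 = m ∧ finrank F P.2 = k}) :
    r ∣ Nat.card {W : Submodule F V // finrank F W = k} ∨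
      ∃ W : Submodule F V, finrank F W = k ∧ r ∣ Nat.card {U : Submodule F W // finrank F U = m} := by
  haveI : Finite V := Module.finite_of_finite F
  haveI : Finite (Submodule F V) := Finite.of_injective _ SetLike.coe_injective
  haveI := Fintype.ofFinite {W : Submodule F V // finrank F W = k}
  let e : {P : Submodule F V × Submodule F V // P.1 ≤ P.2 ∧ finrank F P.1 = m ∧ finrank F P.2 = k} ≃
      Σ W : {W : Submodule F V // finrank F W = k}, {U : Submodule F V // U ≤ W.1 ∧ finrank F U = m} :=
    { toFun := fun P => ⟨⟨P.1.2, P.2.2.2⟩, P.1.1, P.2.1, P.2.2.1⟩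
      invFun := fun p => ⟨(p.2.1, p.1.1), p.2.2.1, p.2.2.2, p.1.2⟩
      left_inv := fun _ => rfl
      right_inv := fun _ => rfl }
  have e2 : ∀ W : Submodule F V, {U : Submodule F W // finrank F U = m} ≃
      {U : Submodule F V // U ≤ W ∧ finrank F U = m} := fun W =>
    (W.mapIic.toEquiv.subtypeEquiv (q := fun U : Set.Iic W => finrank F U.1 = m) (fun U => by
      show finrank F U = m ↔ finrank F (U.map W.subtype) = m
      rw [Submodule.finrank_map_subtype_eq])).trans
      { toFun := fun U => ⟨U.1.1, U.1.2, U.2⟩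
        invFun := fun U => ⟨⟨U.1, U.2.1⟩, U.2.2⟩
        left_inv := fun _ => rfl
        right_inv := fun _ => rfl }
  have hsame : ∀ W W' : {W : Submodule F V // finrank F W = k},
      Nat.card {U : Submodule F W.1 // finrank F U = m} = Nat.card {U : Submodule F W'.1 // finrank F U = m} :=
    fun W W' => by
      let φ : W.1 ≃ₗ[F] W'.1 := LinearEquiv.ofFinrankEq _ _ (W.2.trans W'.2.symm)
      refine Nat.card_congr ((Submodule.orderIsoMapComap φ).toEquiv.subtypeEquiv fun U => ?_)
      show finrank F U = m ↔ finrank F (U.map (φ : W.1 →ₗ[F] W'.1)) = m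
      rw [LinearEquiv.finrank_map_eq]
  rcases isEmpty_or_nonempty {W : Submodule F V // finrank F W = k} with hemp | ⟨⟨W₀⟩⟩
  · left; simp
  rw [Nat.card_congr e, Nat.card_sigma,
    Finset.sum_congr rfl (fun W _ => ((Nat.card_congr (e2 W.1)).symm.trans (hsame W W₀))),
    Finset.sum_const, Finset.card_univ, ← Nat.card_eq_fintype_card, smul_eq_mul] at h
  exact (hrp.dvd_mul.1 h).imp id fun h2 => ⟨W₀.1, W₀.2, h2⟩

end Cfsg.Agent.H97
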