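import Cfsg.Agent.H97.Semisimple

/-! Elements of prime order with prescribed fixed space, and normalisation of scalar twists. -/

namespace Cfsg.Agent.H97

open Module

variable {F : Type*} [Field F] [Finite F] {r : ℕ} [Fact r.Prime]

omit [Finite F] [Fact r.Prime] in
/-- The fixed space is transported by a linear equivalence. -/
theorem fixedSpace_conj {V W : Type*} [AddCommGroup V] [Module F V] [AddCommGroup W] [Module F W]
    (e : V ≃ₗ[F] W) (x : End F V) : fixedSpace (e.conj x) = (fixedSpace x).map (e : V →ₗ[F] W) := by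
  ext w
  rw [mem_fixedSpace, LinearEquiv.conj_apply_apply, Submodule.mem_map_equiv, mem_fixedSpace]
  exact ⟨fun h => e.injective (by simpa using h), fun h => by rw [h, e.apply_symm_apply]⟩

omit [Finite F] [Fact r.Prime] in
/-- Conjugation by a linear equivalence commutes with powers. -/
theorem conj_pow {V W : Type*} [AddCommGroup V] [Module F V] [AddCommGroup W] [Module F W]
    (e : V ≃ₗ[F] W) (x : End F V) (k : ℕ) : (e.conj x) ^ k = e.conj (x ^ k) := by
  induction k with
  | zero => exact (LinearEquiv.conj_id e).symm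
  | succ k ih => rw [pow_succ, pow_succ, ih]; exact (e.conj_comp _ _).symm

/-- An operator of order `r` without nonzero fixed vectors on `F ^ ord_r q`. -/
theorem exists_block (hr : (r : F) ≠ 0) :
    ∃ g : End F (Fin (orderOf (Nat.card F : ZMod r)) → F), g ^ r = 1 ∧ ∀ v, g v = v → v = 0 := by
  classical
  haveI := Fintype.ofFinite F
  set i := orderOf (Nat.card F : ZMod r) with hi
  have hipos : 0 < i := orderOf_pos_zmod hr
  have hdvd : r ∣ Nat.card (GL (Fin i) F) := by
    rw [Matrix.card_GL_field]
    refine dvd_trans ?_ (Finset.dvd_prod_of_mem _ (Finset.mem_univ (⟨0, hipos⟩ : Fin i)))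
    simp only [pow_zero]
    rw [← Nat.card_eq_fintype_card, ← Nat.modEq_iff_dvd' (Nat.one_le_pow _ _ Nat.card_pos)]
    refine ((ZMod.natCast_eq_natCast_iff _ _ _).1 ?_).symm
    rw [Nat.cast_pow, Nat.cast_one, hi]; exact pow_orderOf_eq_one _
  haveI : Fintype (GL (Fin i) F) := Fintype.ofFinite _
  obtain ⟨M, hM⟩ := exists_prime_orderOf_dvd_card' r hdvd
  let g : End F (Fin i → F) := Matrix.toLinAlgEquiv' (M : Matrix (Fin i) (Fin i) F)
  have hg : g ^ r = 1 := by
    rw [← map_pow, ← Units.val_pow_eq_pow_val, ← hM, pow_orderOf_eq_one, Units.val_one, map_one]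
  refine ⟨g, hg, fun v hv => ?_⟩
  have hne : g ≠ 1 := fun h => by
    have h1 : M = 1 := Units.ext (Matrix.toLinAlgEquiv'.injective (h.trans (map_one _).symm))
    rw [h1, orderOf_one] at hM
    exact (Fact.out : r.Prime).one_lt.ne hM
  have hmoved : movedSpace g ≠ ⊥ := fun h => hne (by
    have := LinearMap.range_eq_bot.1 h; rwa [sub_eq_zero] at this)
  have hd : i ∣ finrank F (movedSpace g) :=
    dvd_finrank_fpf hr g hg _ (movedSpace_inv g) (disjoint_fixed_moved hr g hg).symm
  have hpos : 0 < finrank F (movedSpace g) :=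
    Nat.pos_of_ne_zero fun h => hmoved (Submodule.finrank_eq_zero.1 h)
  have htop : movedSpace g = ⊤ := Submodule.eq_top_of_finrank_eq
    (le_antisymm (Submodule.finrank_le _) (by rw [Module.finrank_fin_fun]; exact Nat.le_of_dvd hpos hd))
  exact (Submodule.disjoint_def.1 (disjoint_fixed_moved hr g hg)) v (mem_fixedSpace.2 hv)
    (htop ▸ Submodule.mem_top)

/-- An operator with `x ^ r = 1` and prescribed fixed space dimension. -/
theorem exists_element (hr : (r : F) ≠ 0) (V : Type*) [AddCommGroup V] [Module F V] [FiniteDimensional F V]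
    (e l : ℕ) (h : finrank F V = e + l * orderOf (Nat.card F : ZMod r)) :
    ∃ x : End F V, x ^ r = 1 ∧ finrank F (fixedSpace x) = e := by
  obtain ⟨g, hg, hfix⟩ := exists_block (F := F) (r := r) hr
  generalize orderOf (Nat.card F : ZMod r) = i at g hg hfix h
  let W := (Fin l → Fin i → F) × (Fin e → F)
  let y : End F W := LinearMap.prodMap (LinearMap.pi fun k => g.comp (LinearMap.proj k)) LinearMap.id
  have hy : ∀ (k : ℕ) (a : Fin l → Fin i → F) (b : Fin e → F), (y ^ k) (a, b) = (fun j => (g ^ k) (a j), b) := by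
    intro k
    induction k with
    | zero => intro a b; rfl
    | succ k ih =>
      intro a b
      rw [pow_succ, Module.End.mul_apply, show y (a, b) = (fun j => g (a j), b) from rfl, ih]
      simp only [pow_succ, Module.End.mul_apply]
  have hdimW : finrank F W = finrank F V := by
    simp only [W, Module.finrank_prod, Module.finrank_pi_fintype, Finset.sum_const, Module.finrank_self,
      Finset.card_univ, Fintype.card_fin, smul_eq_mul, h]
    ring
  let φ : W ≃ₗ[F] V := LinearEquiv.ofFinrankEq W V hdimW
  refine ⟨φ.conj y, ?_, ?_⟩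
  · have hy1 : y ^ r = 1 := LinearMap.ext fun ab => by
      rw [← Prod.mk.eta (p := ab), hy, hg]; rfl
    rw [conj_pow, hy1]
    exact LinearEquiv.conj_id φ
  · rw [fixedSpace_conj, LinearEquiv.finrank_map_eq]
    have hfs : fixedSpace y = Submodule.prod ⊥ ⊤ := by
      ext ⟨a, b⟩
      rw [mem_fixedSpace, Submodule.mem_prod, show y (a, b) = (fun j => g (a j), b) from rfl]
      simp only [Submodule.mem_bot, Submodule.mem_top, and_true]
      refine ⟨fun h => funext fun j => hfix _ ?_, fun h => ?_⟩
      · exact congr_fun (congrArg Prod.fst h) j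
      · rw [h]; simp; rfl
    rw [hfs, ← Submodule.map_inr, Submodule.map_top,
      LinearMap.finrank_range_of_inj LinearMap.inr_injective, Module.finrank_fin_fun]

/-- Outside `r ∣ q - 1`, an `r`th root of unity in `F` is trivial. -/
theorem eq_one_of_pow_eq_one (hi : 2 ≤ orderOf (Nat.card F : ZMod r)) {c : F} (hc : c ^ r = 1) : c = 1 := by
  haveI := Fintype.ofFinite F
  by_contra hne
  have hc0 : c ≠ 0 := fun h => by simp [h, zero_pow (Fact.out : r.Prime).ne_zero] at hc
  have hord : orderOf c = r := orderOf_eq_prime hc hne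
  have hdvd : r ∣ Nat.card F - 1 := by
    rw [← hord, Nat.card_eq_fintype_card]
    exact orderOf_dvd_of_pow_eq_one (FiniteField.pow_card_sub_one_eq_one c hc0)
  have hm : Nat.card F ^ 1 ≡ 1 [MOD r] := by
    rw [pow_one]; exact ((Nat.modEq_iff_dvd' Nat.card_pos).2 hdvd).symm
  have := Nat.le_of_dvd one_pos (orderOf_dvd_of_modEq hm)
  omega

/-- Outside `r ∣ q - 1`, every element of `F` is an `r`th power. -/
theorem exists_pow_eq (hi : 2 ≤ orderOf (Nat.card F : ZMod r)) (c : F) : ∃ w : F, w ^ r = c := by
  have hinj : Function.Injective fun w : F => w ^ r := by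
    intro a b (h : a ^ r = b ^ r)
    by_cases hb : b = 0
    · subst hb
      rw [zero_pow (Fact.out : r.Prime).ne_zero] at h
      exact pow_eq_zero_iff (Fact.out : r.Prime).ne_zero |>.1 h
    · have h1 : (a / b) ^ r = 1 := by rw [div_pow, h, div_self (pow_ne_zero _ hb)]
      have := eq_one_of_pow_eq_one hi h1
      rwa [div_eq_one_iff_eq hb] at this
  exact (Finite.injective_iff_surjective.1 hinj) c

omit [Finite F] in
/-- Removing an `r`th power scalar twist. -/
theorem pow_smul_inv_eq_one {V : Type*} [AddCommGroup V] [Module F V] (x : End F V) {w : F} (hw : w ≠ 0)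
    (h : x ^ r = w ^ r • 1) : (w⁻¹ • x) ^ r = 1 := by
  rw [smul_pow, h, smul_smul, ← mul_pow, inv_mul_cancel₀ hw, one_pow, one_smul]

omit [Finite F] in
/-- Invariant subspaces are unchanged by scalar multiples. -/
theorem map_le_smul_iff {V : Type*} [AddCommGroup V] [Module F V] (x : End F V) {w : F} (hw : w ≠ 0)
    (W : Submodule F V) : W.map (w • x) ≤ W ↔ W.map x ≤ W := by
  simp only [Submodule.map_le_iff_le_comap]
  refine forall₂_congr fun v _ => ?_
  simp [Submodule.smul_mem_iff _ hw]

end Cfsg.Agent.H97
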