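import Cfsg.Agent.H97.Basic

/-! Linear maps whose `r`th power is a scalar that is not an `r`th power (`r` prime). -/

namespace Cfsg.Agent.H97

open Module

variable {F V : Type*} [Field F] [AddCommGroup V] [Module F V] [FiniteDimensional F V]
  {r : ℕ} [Fact r.Prime] {z : F}

omit [FiniteDimensional F V] [Fact r.Prime] in
/-- Determinant of a monomial operator. -/
theorem det_monomial {ι : Type*} [Fintype ι] [DecidableEq ι] (b : Basis ι F V) (x : End F V)
    (π : Equiv.Perm ι) (d : ι → F) (h : ∀ i, x (b i) = d i • b (π i)) :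
    LinearMap.det x = ((Equiv.Perm.sign π : ℤ) : F) * ∏ i, d i := by
  rw [← LinearMap.det_toMatrix b]
  have hM : LinearMap.toMatrix b b x = (Matrix.diagonal d).submatrix π.symm id := by
    ext i j
    rw [LinearMap.toMatrix_apply, h, map_smul, b.repr_self, Finsupp.smul_single, smul_eq_mul, mul_one,
      Matrix.submatrix_apply, id, Finsupp.single_apply, Matrix.diagonal_apply]
    by_cases hij : π.symm i = j
    · subst hij; simp
    · rw [if_neg hij, if_neg fun he => hij (by rw [← he, π.symm_apply_apply])]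
  rw [hM, Matrix.det_permute, Matrix.det_diagonal, Equiv.Perm.sign_symm]

/-- A twisted operator only has invariant subspaces of dimension divisible by `r`. -/
theorem twisted_dvd_finrank (hz0 : z ≠ 0) (hz : ∀ w : F, w ^ r ≠ z) (x : End F V) (hx : x ^ r = z • 1)
    (W : Submodule F V) (hW : W.map x ≤ W) : r ∣ finrank F W := by
  by_contra hd
  let g : End F W := x.restrict fun v hv => hW ⟨v, hv, rfl⟩
  have hgk : ∀ (k : ℕ) (v : W), ((g ^ k) v : V) = (x ^ k) v := by
    intro k
    induction k with
    | zero => intro v; rfl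
    | succ k ih => intro v; rw [pow_succ, pow_succ, Module.End.mul_apply, ih]; rfl
  have hg : g ^ r = z • 1 := LinearMap.ext fun v => Subtype.ext (by rw [hgk, hx]; rfl)
  have hdet : LinearMap.det g ^ r = z ^ finrank F W := by
    rw [← map_pow, hg, LinearMap.det_smul, map_one, mul_one]
  obtain ⟨k, hk1⟩ : ∃ k, finrank F W * k % r = 1 := by
    refine ⟨((finrank F W : ZMod r)⁻¹).val, ?_⟩
    have h0 : (finrank F W : ZMod r) ≠ 0 := fun h => hd ((ZMod.natCast_eq_zero_iff _ _).1 h)
    have h1 : ((finrank F W * ((finrank F W : ZMod r)⁻¹).val : ℕ) : ZMod r) = ((1 : ℕ) : ZMod r) := by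
      rw [Nat.cast_mul, ZMod.natCast_zmod_val, mul_inv_cancel₀ h0, Nat.cast_one]
    rw [(ZMod.natCast_eq_natCast_iff' _ _ _).1 h1, Nat.mod_eq_of_lt (Fact.out : r.Prime).one_lt]
  set j := finrank F W * k / r
  have hj : finrank F W * k = r * j + 1 := by
    have := Nat.div_add_mod (finrank F W * k) r
    rw [hk1] at this; exact this.symm
  refine hz (LinearMap.det g ^ k / z ^ j) ?_
  rw [div_pow, ← pow_mul, mul_comm k r, pow_mul, hdet, ← pow_mul, ← pow_mul, hj, pow_succ, mul_comm j r,
    mul_div_assoc]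
  field_simp

omit [FiniteDimensional F V] in
/-- The span of the first `r` iterates is invariant. -/
theorem cyclic_inv (x : End F V) (hx : x ^ r = z • 1) (v : V) :
    (Submodule.span F (Set.range fun j : Fin r => (x ^ (j : ℕ)) v)).map x ≤
      Submodule.span F (Set.range fun j : Fin r => (x ^ (j : ℕ)) v) := by
  rw [Submodule.map_span, Submodule.span_le]
  rintro _ ⟨_, ⟨j, rfl⟩, rfl⟩
  have h1 : x ((x ^ (j : ℕ)) v) = (x ^ ((j : ℕ) + 1)) v := by rw [pow_succ', Module.End.mul_apply]
  rw [h1]
  rcases Nat.lt_or_ge ((j : ℕ) + 1) r with h | h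
  · exact Submodule.subset_span ⟨⟨_, h⟩, rfl⟩
  · rw [show (j : ℕ) + 1 = r by omega, hx]
    exact Submodule.smul_mem _ _ (Submodule.subset_span ⟨⟨0, by omega⟩, by simp⟩)

/-- A nonzero vector generates an invariant subspace of dimension exactly `r`. -/
theorem cyclic_finrank (hz0 : z ≠ 0) (hz : ∀ w : F, w ^ r ≠ z) (x : End F V) (hx : x ^ r = z • 1) {v : V}
    (hv : v ≠ 0) : finrank F (Submodule.span F (Set.range fun j : Fin r => (x ^ (j : ℕ)) v)) = r := by
  refine le_antisymm ((finrank_range_le_card _).trans (by simp)) (Nat.le_of_dvd ?_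
    (twisted_dvd_finrank hz0 hz x hx _ (cyclic_inv x hx v)))
  refine Nat.pos_of_ne_zero fun h => hv ?_
  exact (Submodule.mem_bot F).1 ((Submodule.finrank_eq_zero.1 h) ▸
    Submodule.subset_span ⟨⟨0, (Fact.out : r.Prime).pos⟩, by simp⟩)

/-- A twisted operator has a basis of iterates `x ^ j (w k)`. -/
theorem exists_twisted_basis (hz0 : z ≠ 0) (hz : ∀ w : F, w ^ r ≠ z) (x : End F V) (hx : x ^ r = z • 1) :
    ∃ (l : ℕ) (w : Fin l → V) (b : Basis (Fin l × Fin r) F V),
      (∀ k j, b (k, j) = (x ^ (j : ℕ)) (w k)) := by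
  have hdvd : r ∣ finrank F V := by
    rw [← finrank_top]; exact twisted_dvd_finrank hz0 hz x hx ⊤ le_top
  have key : ∀ l, l * r ≤ finrank F V → ∃ w : Fin l → V,
      LinearIndependent F (fun p : Fin l × Fin r => (x ^ (p.2 : ℕ)) (w p.1)) := by
    intro l
    induction l with
    | zero => exact fun _ => ⟨Fin.elim0, linearIndependent_empty_type⟩
    | succ l ih =>
      intro hl
      obtain ⟨w, hw⟩ := ih ((Nat.mul_le_mul_right r (Nat.le_succ l)).trans hl)
      set W := Submodule.span F (Set.range fun p : Fin l × Fin r => (x ^ (p.2 : ℕ)) (w p.1)) with hWdef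
      have hWd : finrank F W = l * r := by rw [hWdef, finrank_span_eq_card hw]; simp
      have hWinv : W.map x ≤ W := by
        rw [hWdef, Submodule.map_span, Submodule.span_le]
        rintro _ ⟨_, ⟨⟨k, j⟩, rfl⟩, rfl⟩
        refine Submodule.span_mono (s := Set.range fun j : Fin r => (x ^ (j : ℕ)) (w k)) ?_
          (cyclic_inv x hx (w k) ⟨_, Submodule.subset_span ⟨j, rfl⟩, rfl⟩)
        rintro _ ⟨j', rfl⟩; exact ⟨(k, j'), rfl⟩
      obtain ⟨v, hv⟩ : ∃ v, v ∉ W := by
        by_contra h; push Not at h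
        have : W = ⊤ := Submodule.eq_top_iff'.2 h
        rw [this, finrank_top] at hWd
        have : l * r < (l + 1) * r := by rw [add_mul, one_mul]; have := (Fact.out : r.Prime).pos; omega
        omega
      set C := Submodule.span F (Set.range fun j : Fin r => (x ^ (j : ℕ)) v) with hCdef
      have hvC : v ∈ C := Submodule.subset_span ⟨⟨0, (Fact.out : r.Prime).pos⟩, by simp⟩
      have hCd : finrank F C = r := cyclic_finrank hz0 hz x hx fun h => hv (h ▸ W.zero_mem)
      have hd : finrank F ↥(W ⊓ C) = 0 := by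
        have h1 := twisted_dvd_finrank hz0 hz x hx _ (map_inf_le hWinv (cyclic_inv x hx v))
        have h2 : W ⊓ C < C := lt_of_le_of_ne inf_le_right fun h => hv (inf_eq_right.1 h hvC)
        have h3 := Submodule.finrank_lt_finrank_of_lt h2
        rw [hCd] at h3
        exact Nat.eq_zero_of_dvd_of_lt h1 h3
      refine ⟨Fin.cons v w, ?_⟩
      rw [linearIndependent_iff_card_eq_finrank_span]
      have hspan : Submodule.span F (Set.range fun p : Fin (l + 1) × Fin r =>
          (x ^ (p.2 : ℕ)) (Fin.cons (α := fun _ => V) v w p.1)) = W ⊔ C := by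
        rw [hWdef, hCdef, ← Submodule.span_union]
        congr 1
        ext y
        simp only [Set.mem_union, Set.mem_range, Prod.exists, Fin.exists_fin_succ, Fin.cons_zero, Fin.cons_succ]
        exact or_comm
      rw [Set.finrank, hspan]
      have h4 := Submodule.finrank_sup_add_finrank_inf_eq W C
      rw [hd, hWd, hCd, add_zero] at h4
      rw [h4, Fintype.card_prod, Fintype.card_fin, Fintype.card_fin, add_mul, one_mul]
  obtain ⟨l, hl⟩ := hdvd
  obtain ⟨w, hw⟩ := key l (by rw [hl, mul_comm])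
  haveI : Nonempty (Fin r) := ⟨⟨0, (Fact.out : r.Prime).pos⟩⟩
  refine ⟨l, w, Basis.mk hw ?_, fun k j => by rw [Basis.mk_apply]⟩
  rw [top_le_iff]
  refine Submodule.eq_top_of_finrank_eq ?_
  rw [finrank_span_eq_card hw, Fintype.card_prod, Fintype.card_fin, Fintype.card_fin, hl, mul_comm]

/-- The diagonal factor of the standard twisted operator. -/
def twistDiag (l r : ℕ) (z : F) (p : Fin l × Fin r) : F := if (p.2 : ℕ) + 1 = r then z else 1

/-- The permutation of the standard twisted operator. -/
def twistPerm (l r : ℕ) : Equiv.Perm (Fin l × Fin r) := Equiv.prodCongrRight fun _ => finRotate r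

omit [FiniteDimensional F V] in
/-- Determinant of the standard twisted monomial operator. -/
theorem det_twistStd {l : ℕ} (b : Basis (Fin l × Fin r) F V) (x : End F V)
    (h : ∀ p, x (b p) = twistDiag l r z p • b (twistPerm l r p)) :
    LinearMap.det x = ((-1) ^ (r - 1) * z) ^ l := by
  rw [det_monomial b x _ _ h, twistPerm, Equiv.Perm.sign_prodCongrRight, mul_pow]
  congr 1
  · rw [Finset.prod_const, Finset.card_univ, Fintype.card_fin, sign_finRotate]
    simp
  · simp only [twistDiag, Fintype.prod_prod_type]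
    have h1 : ∀ _ : Fin l, (∏ j : Fin r, if (j : ℕ) + 1 = r then z else 1) = z := fun _ => by
      rw [Finset.prod_eq_single (⟨r - 1, Nat.sub_lt (Fact.out : r.Prime).pos one_pos⟩ : Fin r)]
      · simp [Nat.sub_add_cancel (Fact.out : r.Prime).one_lt.le]
      · intro j _ hj
        rw [if_neg]
        intro he; exact hj (Fin.ext (by simp; omega))
      · simp
    rw [Finset.prod_congr rfl fun k _ => h1 k, Finset.prod_const, Finset.card_univ, Fintype.card_fin]

omit [Field F] [AddCommGroup V] [Module F V] [FiniteDimensional F V] in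
theorem twistPerm_val {l : ℕ} (k : Fin l) (j : Fin r) :
    ((twistPerm l r (k, j)).1 = k) ∧
      ((twistPerm l r (k, j)).2 : ℕ) = if (j : ℕ) + 1 = r then 0 else (j : ℕ) + 1 := by
  obtain ⟨r', rfl⟩ : ∃ r', r = r' + 1 := ⟨r - 1, by have := (Fact.out : r.Prime).pos; omega⟩
  refine ⟨rfl, ?_⟩
  show ((finRotate (r' + 1) j : Fin (r' + 1)) : ℕ) = _
  rw [finRotate_succ_apply, Fin.val_add_one]
  by_cases hj : j = Fin.last r'
  · simp [hj]
  · rw [if_neg hj, if_neg]
    intro h; exact hj (Fin.ext (by simp; omega))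

/-- Determinant of a twisted operator. -/
theorem twisted_det (hz0 : z ≠ 0) (hz : ∀ w : F, w ^ r ≠ z) (x : End F V) (hx : x ^ r = z • 1) :
    ∃ l, finrank F V = l * r ∧ LinearMap.det x = ((-1) ^ (r - 1) * z) ^ l := by
  obtain ⟨l, w, b, hb⟩ := exists_twisted_basis hz0 hz x hx
  refine ⟨l, by rw [Module.finrank_eq_card_basis b]; simp, det_twistStd b x ?_⟩
  rintro ⟨k, j⟩
  obtain ⟨h1, h2⟩ := twistPerm_val k j
  rw [← Prod.mk.eta (p := twistPerm l r (k, j)), hb, hb, h1, h2, ← Module.End.mul_apply, ← pow_succ',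
    twistDiag]
  split_ifs with h
  · simp only at h; rw [h, hx]; simp
  · rw [one_smul]

omit [FiniteDimensional F V] in
/-- Existence of twisted operators on spaces of dimension divisible by `r`. -/
theorem exists_twisted (z : F) {l : ℕ} (b : Basis (Fin l × Fin r) F V) :
    ∃ x : End F V, x ^ r = z • 1 ∧ ∀ p, x (b p) = twistDiag l r z p • b (twistPerm l r p) := by
  refine ⟨b.constr F fun p => twistDiag l r z p • b (twistPerm l r p), ?_, fun p => b.constr_basis F _ p⟩
  set x : End F V := b.constr F fun p => twistDiag l r z p • b (twistPerm l r p)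
  have hpos := (Fact.out : r.Prime).pos
  have hstep : ∀ (k : Fin l) (s : ℕ) (hs : s < r), (x ^ s) (b (k, ⟨0, hpos⟩)) = b (k, ⟨s, hs⟩) := by
    intro k s
    induction s with
    | zero => intro _; rfl
    | succ s ih =>
      intro hs
      rw [pow_succ', Module.End.mul_apply, ih (by omega), b.constr_basis, twistDiag,
        if_neg (by simp only; omega), one_smul]
      congr 1
      obtain ⟨h1, h2⟩ := twistPerm_val k (⟨s, by omega⟩ : Fin r)
      exact Prod.ext h1 (Fin.ext (by rw [h2, if_neg (by simp only; omega)]))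
  have h0 : ∀ k : Fin l, (x ^ r) (b (k, ⟨0, hpos⟩)) = z • b (k, ⟨0, hpos⟩) := by
    intro k
    rw [show x ^ r = x * x ^ (r - 1) by rw [← pow_succ', Nat.sub_add_cancel hpos], Module.End.mul_apply, hstep k (r - 1) (by omega), b.constr_basis, twistDiag,
      if_pos (by simp only; omega)]
    congr 2
    obtain ⟨h1, h2⟩ := twistPerm_val k (⟨r - 1, by omega⟩ : Fin r)
    exact Prod.ext h1 (Fin.ext (by rw [h2, if_pos (by simp only; omega)]))
  refine b.ext fun ⟨k, j⟩ => ?_
  rw [← hstep k j j.2, ← Module.End.mul_apply, ← pow_add, add_comm, pow_add, Module.End.mul_apply, h0]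
  simp

/-- Invariant subspaces of every dimension divisible by `r`. -/
theorem twisted_exists_inv (hz0 : z ≠ 0) (hz : ∀ w : F, w ^ r ≠ z) (x : End F V) (hx : x ^ r = z • 1)
    (L : ℕ) (hL : L * r ≤ finrank F V) : ∃ W : Submodule F V, finrank F W = L * r ∧ W.map x ≤ W := by
  obtain ⟨l, w, b, hb⟩ := exists_twisted_basis hz0 hz x hx
  have hLl : L ≤ l := by
    rw [Module.finrank_eq_card_basis b] at hL; simp only [Fintype.card_prod, Fintype.card_fin] at hL
    exact Nat.le_of_mul_le_mul_right hL (Fact.out : r.Prime).pos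
  let f : Fin L × Fin r → V := fun p => b (Fin.castLE hLl p.1, p.2)
  refine ⟨Submodule.span F (Set.range f), ?_, ?_⟩
  · rw [finrank_span_eq_card (R := F) (b := f) (b.linearIndependent.comp _ fun p p' h => by
      simp only [Prod.mk.injEq] at h
      exact Prod.ext (Fin.castLE_injective _ h.1) h.2)]
    simp
  · rw [Submodule.map_span, Submodule.span_le]
    rintro _ ⟨_, ⟨⟨k, j⟩, rfl⟩, rfl⟩
    refine Submodule.span_mono (s := Set.range fun j : Fin r => (x ^ (j : ℕ)) (w (Fin.castLE hLl k))) ?_
      (cyclic_inv x hx _ ⟨_, Submodule.subset_span ⟨j, rfl⟩, by simp [f, hb]⟩)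
    rintro _ ⟨j', rfl⟩
    exact ⟨(k, j'), by simp [f, hb]⟩

end Cfsg.Agent.H97
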