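import Cfsg.Agent.H97.Elements
import Cfsg.Agent.H97.Twisted
import Cfsg.Agent.H97.Counting

/-! Invariant subspaces, complements and flags for elements of prime order of `SL_n(q)` modulo scalars. -/

namespace Cfsg.Agent.H97

open Module

variable {F : Type*} [Field F] [Finite F] {r : ℕ} [Fact r.Prime]

section
variable {V : Type*} [AddCommGroup V] [Module F V] [FiniteDimensional F V]

omit [Finite F] [Fact r.Prime] in
/-- An operator with nonzero scalar `r`th power has invariant complements. -/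
theorem exists_inv_compl_of_scalar (hr : (r : F) ≠ 0) (x : End F V) {z : F} (hz : z ≠ 0) (hx : x ^ r = z • 1)
    (W : Submodule F V) (hW : W.map x ≤ W) : ∃ U : Submodule F V, IsCompl W U ∧ U.map x ≤ U := by
  have hss : x.IsSemisimple := Module.End.isSemisimple_of_squarefree_aeval_eq_zero
    (Polynomial.separable_X_pow_sub_C z hr hz).squarefree (by simp [hx, Algebra.algebraMap_eq_smul_one])
  obtain ⟨U, hU, hc⟩ := Module.End.isSemisimple_iff.1 hss W
    ((Module.End.mem_invtSubmodule x).2 (Submodule.map_le_iff_le_comap.1 hW))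
  exact ⟨U, hc, Submodule.map_le_iff_le_comap.2 ((Module.End.mem_invtSubmodule x).1 hU)⟩

/-- A subspace of given dimension inside another. -/
theorem exists_le_finrank_eq (E : Submodule F V) {e : ℕ} (he : e ≤ finrank F E) :
    ∃ E' : Submodule F V, E' ≤ E ∧ finrank F E' = e := by
  obtain ⟨g, hg⟩ := exists_linearIndependent_of_le_finrank (R := F) (M := E) he
  have hgi : LinearIndependent F (fun i => (g i : V)) := hg.map' E.subtype (Submodule.ker_subtype E)
  refine ⟨Submodule.span F (Set.range fun i => (g i : V)),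
    Submodule.span_le.2 (by rintro _ ⟨i, rfl⟩; exact (g i).2), ?_⟩
  rw [finrank_span_eq_card hgi, Fintype.card_fin]

/-- The fixed space of a restriction. -/
theorem finrank_fixedSpace_restrict (x : End F V) (W : Submodule F V) (hW : ∀ v ∈ W, x v ∈ W) :
    finrank F (fixedSpace (x.restrict hW : End F W)) = finrank F ↥(W ⊓ fixedSpace x) := by
  suffices h : (fixedSpace (x.restrict hW : End F W)).map W.subtype = W ⊓ fixedSpace x by
    rw [← Submodule.finrank_map_subtype_eq W, h]
  ext v
  simp only [Submodule.mem_map, Submodule.mem_inf, mem_fixedSpace, Submodule.subtype_apply]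
  constructor
  · rintro ⟨⟨u, hu⟩, hux, rfl⟩; exact ⟨hu, congrArg Subtype.val hux⟩
  · rintro ⟨hv, hvx⟩; exact ⟨⟨v, hv⟩, Subtype.ext hvx, rfl⟩

omit [Finite F] [Fact r.Prime] [FiniteDimensional F V] in
/-- Powers of a restriction. -/
theorem restrict_pow_eq (x : End F V) (W : Submodule F V) (hW : ∀ v ∈ W, x v ∈ W) {z : F}
    (hx : x ^ r = z • 1) : (x.restrict hW : End F W) ^ r = z • 1 := by
  have hgk : ∀ (k : ℕ) (v : W), ((((x.restrict hW : End F W)) ^ k) v : V) = (x ^ k) v := by
    intro k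
    induction k with
    | zero => intro v; rfl
    | succ k ih => intro v; rw [pow_succ, pow_succ, Module.End.mul_apply, ih]; rfl
  exact LinearMap.ext fun v => Subtype.ext (by rw [hgk, hx]; rfl)

/-- The fixed space dimension is congruent to the dimension modulo `ord_r q`. -/
theorem mod_le_finrank_fixed (hr : (r : F) ≠ 0) (x : End F V) (hx : x ^ r = 1) :
    finrank F V % orderOf (Nat.card F : ZMod r) ≤ finrank F (fixedSpace x) ∧
      finrank F V % orderOf (Nat.card F : ZMod r) =
        finrank F (fixedSpace x) % orderOf (Nat.card F : ZMod r) := by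
  obtain ⟨l, hl⟩ := finrank_inv_eq hr x hx ⊤ le_top
  rw [top_inf_eq, finrank_top] at hl
  rw [hl, Nat.add_mul_mod_self_right]
  exact ⟨Nat.mod_le _ _, rfl⟩

/-- A flag of type `(m, n - m)` fixed by an element of order `r`. -/
theorem exists_flag (hr : (r : F) ≠ 0) (x : End F V) (hx : x ^ r = 1) {m : ℕ} (hm : 2 * m < finrank F V)
    (him : orderOf (Nat.card F : ZMod r) ≤ m)
    (hmod : 2 * (m % orderOf (Nat.card F : ZMod r)) ≤ finrank F V % orderOf (Nat.card F : ZMod r)) :
    ∃ U W : Submodule F V, U ≤ W ∧ finrank F U = m ∧ finrank F W = finrank F V - m ∧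
      U.map x ≤ U ∧ W.map x ≤ W := by
  obtain ⟨hne, hnmod⟩ := mod_le_finrank_fixed hr x hx
  have hip := orderOf_pos_zmod (F := F) (r := r) hr
  have hcomp := Submodule.finrank_add_eq_of_isCompl (isCompl_fixed_moved hr x hx)
  generalize hi : orderOf (Nat.card F : ZMod r) = i at *
  generalize hn : finrank F V = n at *
  generalize he : finrank F (fixedSpace x) = e at *
  have hb : (n - m) % i = n % i - m % i := by
    have h1 := Nat.div_add_mod n i
    have h2 := Nat.div_add_mod m i
    have h3 : n % i < i := Nat.mod_lt _ hip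
    have h4 : m / i ≤ n / i := Nat.div_le_div_right (by omega)
    have h5 : n - m = (n % i - m % i) + i * (n / i - m / i) := by
      rw [Nat.mul_sub]
      have := Nat.mul_le_mul_left i h4
      omega
    rw [h5, Nat.add_mul_mod_self_left, Nat.mod_eq_of_lt (by omega)]
  obtain ⟨e', l, he', hsum, hfit, hbig⟩ : ∃ e' l, e' ≤ e ∧ e' + l * i = n - m ∧
      e' + l * i ≤ e' + (n - e) ∧ m % i ≤ e' := by
    rcases le_or_gt (n - m) e with h | h
    · exact ⟨n - m, 0, h, by simp, by simp, by have := Nat.mod_le m i; omega⟩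
    · obtain ⟨l, hl1, hl2⟩ : ∃ l, n - m - e ≤ l * i ∧ l * i < n - m - e + i := by
        refine ⟨(n - m - e + i - 1) / i, ?_, ?_⟩
        · have h3 := Nat.lt_mul_div_succ (n - m - e + i - 1) hip
          rw [mul_add, mul_one, mul_comm i] at h3
          omega
        · have h3 := Nat.div_mul_le_self (n - m - e + i - 1) i
          omega
      have hd := Nat.div_add_mod' (n - m) i
      rw [hb] at hd
      have hlq : l * i ≤ (n - m) / i * i := by
        refine Nat.mul_le_mul_right i ?_
        by_contra hlt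
        have h6 : ((n - m) / i + 1) * i ≤ l * i := Nat.mul_le_mul_right i (not_le.1 hlt)
        rw [add_mul, one_mul] at h6
        omega
      exact ⟨n - m - l * i, l, by omega, by omega, by omega, by omega⟩
  obtain ⟨E', hE', hE'd⟩ := exists_le_finrank_eq (fixedSpace x) (he.symm ▸ he')
  obtain ⟨W, hEW, -, hW, hWd⟩ := exists_inv_between hr x hx E'
    (map_le_of_fixed fun v hv => mem_fixedSpace.1 (hE' hv)) l (by
      rw [hi]
      have h1 := Submodule.finrank_sup_add_finrank_inf_eq E' (movedSpace x)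
      have h2 : E' ⊓ movedSpace x = ⊥ := ((disjoint_fixed_moved hr x hx).mono_left hE').eq_bot
      rw [h2, finrank_bot, add_zero, hE'd] at h1
      rw [h1, hE'd]; omega)
  rw [hE'd] at hWd
  rw [hi] at hWd
  have hWx : ∀ v ∈ W, x v ∈ W := fun v hv => hW ⟨v, hv, rfl⟩
  have hgr : (x.restrict hWx : End F W) ^ r = 1 := by
    rw [restrict_pow_eq x W hWx (z := 1) (by rw [hx, one_smul]), one_smul]
  obtain ⟨U, hUd, hU⟩ := (exists_inv_finrank_iff_pow hr (x.restrict hWx : End F W) hgr
    (show m < finrank F W by omega)).2 (Or.inr ⟨hi.symm ▸ him, by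
      rw [hi, finrank_fixedSpace_restrict]
      exact le_trans (hE'd ▸ hbig : m % i ≤ finrank F E') (Submodule.finrank_mono (le_inf hEW hE'))⟩)
  refine ⟨U.map W.subtype, W, Submodule.map_subtype_le W U, by rw [Submodule.finrank_map_subtype_eq, hUd],
    by omega, ?_, hW⟩
  rintro _ ⟨_, ⟨u, hu, rfl⟩, rfl⟩
  exact ⟨_, hU ⟨u, hu, rfl⟩, rfl⟩

/-- Necessary condition for a fixed flag. -/
theorem flag_mod_le (hr : (r : F) ≠ 0) (x : End F V) (hx : x ^ r = 1) {m : ℕ} {U W : Submodule F V}
    (hUW : U ≤ W) (hUd : finrank F U = m) (hWd : finrank F W = finrank F V - m) (hU : U.map x ≤ U)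
    (hW : W.map x ≤ W) : 2 * (m % orderOf (Nat.card F : ZMod r)) ≤ finrank F (fixedSpace x) := by
  obtain ⟨l1, h1⟩ := finrank_inv_eq hr x hx U hU
  obtain ⟨l2, h2⟩ := finrank_inv_eq hr x hx W hW
  obtain ⟨l3, h3⟩ := finrank_inv_eq hr x hx ⊤ le_top
  rw [top_inf_eq, finrank_top] at h3
  have ha : finrank F ↥(U ⊓ fixedSpace x) ≤ finrank F ↥(W ⊓ fixedSpace x) :=
    Submodule.finrank_mono (inf_le_inf_right _ hUW)
  have hb : finrank F ↥(W ⊓ fixedSpace x) ≤ finrank F (fixedSpace x) := Submodule.finrank_mono inf_le_right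
  have hWle := Submodule.finrank_le W
  set i := orderOf (Nat.card F : ZMod r)
  have hmV : m ≤ finrank F V := hUd ▸ Submodule.finrank_le U
  have ham : m % i ≤ finrank F ↥(U ⊓ fixedSpace x) := by
    rw [← hUd, h1, Nat.add_mul_mod_self_right]; exact Nat.mod_le _ _
  have hcm : m % i ≤ finrank F (fixedSpace x) - finrank F ↥(W ⊓ fixedSpace x) := by
    have key : m + l2 * i = (finrank F (fixedSpace x) - finrank F ↥(W ⊓ fixedSpace x)) + l3 * i := by omega
    have := congrArg (· % i) key
    simp only [Nat.add_mul_mod_self_right] at this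
    rw [this]; exact Nat.mod_le _ _
  omega

end

/-- Units of a finite field: twisted scalars with trivial determinant. -/
theorem exists_twist_scalar_iff {n : ℕ} (hn : 0 < n) (hq : r ∣ Nat.card F - 1) :
    (∃ z : F, z ≠ 0 ∧ (∀ w : F, w ^ r ≠ z) ∧ r ∣ n ∧ ((-1) ^ (r - 1) * z) ^ (n / r) = 1) ↔
      ¬ (padicValNat r n ≤ padicValNat r (Nat.card F - 1) ∧ (r = 2 → Even n → Nat.card F % 4 = 1)) := by
  classical
  haveI := Fintype.ofFinite F
  have hrp : r.Prime := Fact.out
  set N := Nat.card F - 1 with hN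
  have hNpos : 0 < N := by have := Finite.one_lt_card (α := F); omega
  have hcardU : Nat.card Fˣ = N := by rw [Nat.card_units]
  set a := padicValNat r N
  have ha : 1 ≤ a := one_le_padicValNat_of_dvd hNpos.ne' hq
  -- non-powers have `r`-part of the order maximal
  have hpow : ∀ u : Fˣ, (∀ w : F, w ^ r ≠ (u : F)) → r ^ a ∣ orderOf u := by
    intro u hu
    by_contra hd
    have hdvd : orderOf u ∣ N := hcardU ▸ orderOf_dvd_natCard u
    have h2 : orderOf u ∣ N / r := by
      rw [Nat.dvd_div_iff_mul_dvd hq]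
      obtain ⟨c, hc⟩ := hdvd
      by_cases hrc : r ∣ c
      · rw [hc, mul_comm r]; exact mul_dvd_mul_left _ hrc
      · exfalso
        refine hd (((Nat.Coprime.pow_left a ((hrp.coprime_iff_not_dvd).2 hrc))).dvd_of_dvd_mul_right ?_)
        rw [← hc]; exact pow_padicValNat_dvd
    obtain ⟨g, hg⟩ := IsCyclic.exists_generator (α := Fˣ)
    obtain ⟨k, hk⟩ := (mem_powers_iff_mem_zpowers (y := u) (x := g)).2 (hg u)
    have hgord : orderOf g = N := by rw [orderOf_eq_card_of_forall_mem_zpowers hg, hcardU]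
    have h3 : N ∣ k * (N / r) := by
      rw [← hgord]; refine orderOf_dvd_of_pow_eq_one ?_
      rw [pow_mul, show g ^ k = u from hk]
      exact orderOf_dvd_iff_pow_eq_one.1 (hgord.symm ▸ h2)
    have h4 : r ∣ k := by
      have h5 : r * (N / r) ∣ k * (N / r) := by rwa [Nat.mul_div_cancel' hq]
      exact Nat.dvd_of_mul_dvd_mul_right (Nat.div_pos (Nat.le_of_dvd hNpos hq) hrp.pos) h5
    obtain ⟨k', rfl⟩ := h4
    refine hu ((g : F) ^ k') ?_
    rw [← pow_mul, mul_comm, ← Units.val_pow_eq_pow_val, show g ^ (r * k') = u from hk]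
  obtain ⟨ε, hε⟩ : ∃ ε : Fˣ, (ε : F) = (-1) ^ (r - 1) := ⟨(-1) ^ (r - 1), by simp⟩
  have hε2 : ε * ε = 1 := Units.ext (by
    rw [Units.val_mul, hε, ← pow_add, ← two_mul, pow_mul, neg_one_sq, one_pow, Units.val_one])
  constructor
  · rintro ⟨z, hz0, hz, hrn, hzn⟩ ⟨hv, h4⟩
    let u : Fˣ := ε * Units.mk0 z hz0
    have hu1 : u ^ (n / r) = 1 := Units.ext (by simpa [u, hε] using hzn)
    have hunp : ∀ w : F, w ^ r ≠ (u : F) := by
      intro w hw
      simp only [u, Units.val_mul, hε, Units.val_mk0] at hw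
      rcases hrp.eq_two_or_odd' with h2 | hodd
      · have hev : Even n := even_iff_two_dvd.2 (h2 ▸ hrn)
        obtain ⟨s, hs⟩ : ∃ s : F, (-1 : F) = s * s := by
          refine FiniteField.isSquare_neg_one_iff.2 ?_
          rw [← Nat.card_eq_fintype_card, h4 h2 hev]; norm_num
        refine hz (w * s) ?_
        subst h2
        simp only [show (2 : ℕ) - 1 = 1 from rfl, pow_one] at hw
        rw [mul_pow, hw, sq s, ← hs]; ring
      · have : ((-1 : F)) ^ (r - 1) = 1 := Even.neg_one_pow (Nat.Odd.sub_odd hodd odd_one)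
        rw [this, one_mul] at hw
        exact hz w hw
    have h5 := (hpow u hunp).trans (orderOf_dvd_of_pow_eq_one hu1)
    have hl0 : n / r ≠ 0 := (Nat.div_pos (Nat.le_of_dvd hn hrn) hrp.pos).ne'
    have h6 := (padicValNat_dvd_iff_le hl0).1 h5
    rw [padicValNat.div hrn] at h6
    have := one_le_padicValNat_of_dvd hn.ne' hrn
    omega
  · intro hcond
    by_cases h43 : r = 2 ∧ Even n ∧ Nat.card F % 4 ≠ 1
    · obtain ⟨h2, hev, h4⟩ := h43
      subst h2
      have hodd : Odd (Nat.card F) := by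
        obtain ⟨c, hc⟩ := hq; exact ⟨c, by omega⟩
      refine ⟨-1, by norm_num, fun w hw => ?_, even_iff_two_dvd.1 hev, by norm_num⟩
      have : Nat.card F % 4 ≠ 3 := by
        rw [Nat.card_eq_fintype_card]
        exact FiniteField.isSquare_neg_one_iff.1 ⟨w, by rw [← hw, sq]⟩
      obtain ⟨c, hc⟩ := hodd
      omega
    have hv : a + 1 ≤ padicValNat r n := by
      by_contra hlt
      exact hcond ⟨by omega, fun h2 hev => by by_contra h4; exact h43 ⟨h2, hev, h4⟩⟩
    have hrn : r ∣ n := dvd_of_one_le_padicValNat (by omega)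
    obtain ⟨g, hg⟩ := IsCyclic.exists_generator (α := Fˣ)
    have hgord : orderOf g = N := by rw [orderOf_eq_card_of_forall_mem_zpowers hg, hcardU]
    have hra : r ^ a ∣ N := pow_padicValNat_dvd
    set u := g ^ (N / r ^ a) with hu
    have huord : orderOf u = r ^ a := by
      rw [hu, orderOf_pow, hgord, Nat.gcd_eq_right (Nat.div_dvd_of_dvd hra), Nat.div_div_self hra hNpos.ne']
    refine ⟨((ε * u : Fˣ) : F), Units.ne_zero _, fun w hw => ?_, hrn, ?_⟩
    · have hw0 : w ≠ 0 := fun h => Units.ne_zero (ε * u) (by rw [← hw, h, zero_pow hrp.ne_zero])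
      have h1 : (Units.mk0 w hw0) ^ r = ε * u := Units.ext (by simpa using hw)
      have h2 : (ε * u) ^ (N / r) = 1 := by
        rw [← h1, ← pow_mul, Nat.mul_div_cancel' hq, ← hcardU, pow_card_eq_one']
      -- `ε ^ (N / r) = 1`
      have h3 : ε ^ (N / r) = 1 := by
        rcases hrp.eq_two_or_odd' with h2' | hodd
        · have hev : Even n := even_iff_two_dvd.2 (h2' ▸ hrn)
          have h4 : Nat.card F % 4 = 1 := by by_contra h4; exact h43 ⟨h2', hev, h4⟩
          obtain ⟨c, hc⟩ : Even (N / r) := ⟨N / 4, by rw [h2']; omega⟩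
          rw [hc, pow_add, ← mul_pow, hε2, one_pow]
        · have : ε = 1 := Units.ext (by rw [hε, Units.val_one]; exact Even.neg_one_pow (Nat.Odd.sub_odd hodd odd_one))
          rw [this, one_pow]
      rw [mul_pow, h3, one_mul] at h2
      have h4 := orderOf_dvd_of_pow_eq_one h2
      rw [huord] at h4
      have h5 : r ^ a * r ∣ N := by
        have := mul_dvd_mul_right h4 r
        rwa [Nat.div_mul_cancel hq] at this
      rw [← pow_succ, padicValNat_dvd_iff_le hNpos.ne'] at h5
      omega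
    · rw [← hε, ← Units.val_mul, ← mul_assoc, hε2, one_mul, ← Units.val_pow_eq_pow_val]
      rw [orderOf_dvd_iff_pow_eq_one.1 (show orderOf u ∣ n / r by
        rw [huord, Nat.dvd_div_iff_mul_dvd hrn, ← pow_succ', padicValNat_dvd_iff_le hn.ne']; omega),
        Units.val_one]

/-- An element of `SL` from an operator. -/
theorem exists_SL {n : ℕ} (f : End F (Fin n → F)) (hdet : LinearMap.det f = 1) {z : F} (hf : f ^ r = z • 1) :
    ∃ x : Matrix.SpecialLinearGroup (Fin n) F, Matrix.toLin' (x : Matrix (Fin n) (Fin n) F) = f ∧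
      ((x ^ r : Matrix.SpecialLinearGroup (Fin n) F) : Matrix (Fin n) (Fin n) F) =
        z • (1 : Matrix (Fin n) (Fin n) F) := by
  let x : Matrix.SpecialLinearGroup (Fin n) F := ⟨LinearMap.toMatrix' f, by rw [LinearMap.det_toMatrix', hdet]⟩
  refine ⟨x, Matrix.toLin'_toMatrix' f, ?_⟩
  apply Matrix.toLinAlgEquiv'.injective
  rw [Matrix.SpecialLinearGroup.coe_pow, map_pow, map_smul, map_one]
  show (Matrix.toLin' (LinearMap.toMatrix' f)) ^ r = z • (1 : End F (Fin n → F))
  rw [Matrix.toLin'_toMatrix']; exact hf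

/-- The operator of an element of `SL` with scalar `r`th power. -/
theorem SL_setup {n : ℕ} (hn : 0 < n) (x : Matrix.SpecialLinearGroup (Fin n) F) {z : F}
    (hz : ((x ^ r : Matrix.SpecialLinearGroup (Fin n) F) : Matrix (Fin n) (Fin n) F) =
      z • (1 : Matrix (Fin n) (Fin n) F)) :
    (Matrix.toLin' (x : Matrix (Fin n) (Fin n) F) : End F (Fin n → F)) ^ r = z • 1 ∧ z ≠ 0 ∧
      LinearMap.det (Matrix.toLin' (x : Matrix (Fin n) (Fin n) F)) = 1 := by
  refine ⟨?_, ?_, by rw [LinearMap.det_toLin']; exact x.det_coe⟩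
  · have h := congrArg Matrix.toLinAlgEquiv' hz
    rw [Matrix.SpecialLinearGroup.coe_pow, map_pow, map_smul, map_one] at h
    exact h
  · intro h0
    haveI : Nonempty (Fin n) := ⟨⟨0, hn⟩⟩
    have h1 : ((x ^ r : Matrix.SpecialLinearGroup (Fin n) F) : Matrix (Fin n) (Fin n) F).det = 1 := (x ^ r).det_coe
    rw [hz, h0, zero_smul, Matrix.det_zero] at h1
    exact zero_ne_one h1

/-- A derangement candidate: nonscalar, order `r`, fixed space of minimal dimension. -/
theorem exists_SL_min_fixed (hr : (r : F) ≠ 0) (hi : 2 ≤ orderOf (Nat.card F : ZMod r)) {n : ℕ}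
    (hn : orderOf (Nat.card F : ZMod r) ≤ n) :
    ∃ x : Matrix.SpecialLinearGroup (Fin n) F,
      (∃ c : F, ((x ^ r : Matrix.SpecialLinearGroup (Fin n) F) : Matrix (Fin n) (Fin n) F) =
        c • (1 : Matrix (Fin n) (Fin n) F)) ∧
      (∀ c : F, (x : Matrix (Fin n) (Fin n) F) ≠ c • (1 : Matrix (Fin n) (Fin n) F)) ∧
      (Matrix.toLin' (x : Matrix (Fin n) (Fin n) F) : End F (Fin n → F)) ^ r = 1 ∧
      finrank F (fixedSpace (Matrix.toLin' (x : Matrix (Fin n) (Fin n) F) : End F (Fin n → F))) =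
        n % orderOf (Nat.card F : ZMod r) := by
  obtain ⟨f, hf, he⟩ := exists_element (F := F) (r := r) hr (Fin n → F) (n % orderOf (Nat.card F : ZMod r)) (n / orderOf (Nat.card F : ZMod r)) (by
    rw [Module.finrank_fin_fun]; have h' := Nat.mod_add_div' n (orderOf (Nat.card F : ZMod r)); omega)
  have hdet : LinearMap.det f = 1 := eq_one_of_pow_eq_one hi (by rw [← map_pow, hf, map_one])
  obtain ⟨x, hxf, hxr⟩ := exists_SL f hdet (z := 1) (by rw [hf, one_smul])
  refine ⟨x, ⟨1, hxr⟩, fun c hc => ?_, by rw [hxf]; exact hf, by rw [hxf]; exact he⟩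
  have hn0 : 0 < n := by omega
  have hfc : f = c • 1 := by rw [← hxf, hc, map_smul, Matrix.toLin'_one]; rfl
  have hcr : c ^ r = 1 := by
    rw [hfc, smul_pow, one_pow] at hf
    have := congrArg (fun g : End F (Fin n → F) => g (fun _ => 1) ⟨0, hn0⟩) hf
    simpa using this
  have hc1 := eq_one_of_pow_eq_one hi hcr
  rw [hc1, one_smul] at hfc
  have : fixedSpace f = ⊤ := Submodule.eq_top_iff'.2 fun v => by rw [mem_fixedSpace, hfc]; rfl
  rw [this, finrank_top, Module.finrank_fin_fun] at he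
  have := Nat.mod_lt n (show orderOf (Nat.card F : ZMod r) > 0 by omega)
  omega

/-- A twisted element of `SL_n`, when one exists. -/
theorem exists_SL_twisted {n : ℕ} (hn : 0 < n) (hq : r ∣ Nat.card F - 1)
    (hcond : ¬ (padicValNat r n ≤ padicValNat r (Nat.card F - 1) ∧ (r = 2 → Even n → Nat.card F % 4 = 1))) :
    ∃ (x : Matrix.SpecialLinearGroup (Fin n) F) (z : F), z ≠ 0 ∧ (∀ w : F, w ^ r ≠ z) ∧
      ((x ^ r : Matrix.SpecialLinearGroup (Fin n) F) : Matrix (Fin n) (Fin n) F) = z • (1 : Matrix (Fin n) (Fin n) F) ∧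
      (∀ c : F, (x : Matrix (Fin n) (Fin n) F) ≠ c • (1 : Matrix (Fin n) (Fin n) F)) := by
  obtain ⟨z, hz0, hz, hrn, hzn⟩ := (exists_twist_scalar_iff hn hq).2 hcond
  let b : Basis (Fin (n / r) × Fin r) F (Fin n → F) :=
    (Pi.basisFun F (Fin n)).reindex (finProdFinEquiv.trans (finCongr (Nat.div_mul_cancel hrn))).symm
  obtain ⟨f, hf, hfb⟩ := exists_twisted z b
  have hdet : LinearMap.det f = 1 := by rw [det_twistStd b f hfb, hzn]
  obtain ⟨x, hxf, hxr⟩ := exists_SL f hdet hf
  refine ⟨x, z, hz0, hz, hxr, fun c hc => hz c ?_⟩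
  have hfc : f = c • 1 := by rw [← hxf, hc, map_smul, Matrix.toLin'_one]; rfl
  rw [hfc, smul_pow, one_pow] at hf
  have := congrArg (fun g : End F (Fin n → F) => g (fun _ => 1) ⟨0, hn⟩) hf
  simpa using this

/-- Twisted elements of `SL_n` force the arithmetic condition. -/
theorem not_cond_of_twisted {n : ℕ} (hn : 0 < n) (hq : r ∣ Nat.card F - 1) (f : End F (Fin n → F)) {z : F}
    (hz0 : z ≠ 0) (hz : ∀ w : F, w ^ r ≠ z) (hf : f ^ r = z • 1) (hdet : LinearMap.det f = 1) :
    ¬ (padicValNat r n ≤ padicValNat r (Nat.card F - 1) ∧ (r = 2 → Even n → Nat.card F % 4 = 1)) := by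
  obtain ⟨l, hl, hd⟩ := twisted_det hz0 hz f hf
  rw [Module.finrank_fin_fun] at hl
  refine (exists_twist_scalar_iff hn hq).1 ⟨z, hz0, hz, ⟨l, by rw [hl, mul_comm]⟩, ?_⟩
  rw [hl, Nat.mul_div_cancel _ (Fact.out : r.Prime).pos, ← hd, hdet]

omit [Fact r.Prime] in
/-- The characteristic is prime to `r` when `r ≠ p`. -/
theorem cast_ne_zero_of_ne {p : ℕ} [Fact p.Prime] [CharP F p] (hr : r.Prime) (hrp : r ≠ p) : (r : F) ≠ 0 := by
  rw [Ne, CharP.cast_eq_zero_iff F p r]
  exact fun h => hrp ((Nat.prime_dvd_prime_iff_eq Fact.out hr).1 h).symm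

/-- `ord_r q = 1` means `r ∣ q - 1`. -/
theorem dvd_sub_one_of_orderOf_eq_one (h : orderOf (Nat.card F : ZMod r) = 1) : r ∣ Nat.card F - 1 := by
  refine (Nat.modEq_iff_dvd' Nat.card_pos).1 ((ZMod.natCast_eq_natCast_iff _ _ _).1 ?_).symm
  rw [Nat.cast_one]; exact orderOf_eq_one_iff.1 h

end Cfsg.Agent.H97
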