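import Cfsg.Agent.H97.M24Two.Local

/-!
A configuration generating a subgroup of order three of width two in type M(24).
-/

set_option autoImplicit false
set_option linter.unusedSectionVars false

open Subgroup Cfsg
open Cfsg.Agent.H43.FischerTwins
open Cfsg.Agent.H37.M22Odd (fixSet fixSet_eq)
open Cfsg.Agent.H52.M24Five (Loc)

namespace Cfsg.Agent.H97.M24Two

/-- Three commuting pairs generating the subgroup and two commuting fixed members commuting with
them. -/
theorem config {G : Type*} [Group G] [Finite G] {D : Set G}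
    (hD : Cfsg.IsThreeTranspositionClass D) (hprim : Cfsg.IsPrimitiveUnderConj D)
    (h24 : Cfsg.IsOfTypeM24 G D) {Y : Subgroup G} (hY : Nat.card Y = 3)
    (hw : Cfsg.commutingWidth (fixSet D Y) = 2) :
    ∃ p q : Fin 3 → G, ∃ d ∈ fixSet D Y, ∃ e ∈ fixSet D Y, H43.Frame.Tuple D p q ∧
      zpowers (p 0 * q 0 * p 1 * q 1 * p 2 * q 2) = Y ∧ d ≠ e ∧ Commute d e ∧
      (∀ i, Commute d (p i) ∧ Commute d (q i)) ∧ ∀ i, Commute e (p i) ∧ Commute e (q i) := by
  rw [fixSet_eq] at hw ⊢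
  obtain ⟨⟨E, hE1, -, -, hE3⟩, -⟩ :=
    H74.M23Three.width_attained (D ∩ (centralizer (Y : Set G) : Set G))
  obtain ⟨d, hd'⟩ : E.Nonempty := Set.nonempty_of_ncard_ne_zero (by omega)
  have hd : d ∈ D ∩ (centralizer (Y : Set G) : Set G) := hE1 hd'
  obtain ⟨w, ⟨P⟩⟩ := H61.Fischer.m24_point hD hprim h24
  obtain ⟨k, hk⟩ := H17.class_transitive hD hd.1 P.mem
  obtain ⟨L₀⟩ := H52.M24Five.loc_point hD (H61.Fischer.m24_base hD hprim h24) P
  obtain ⟨L⟩ := H52.M24Five.loc_conj hD L₀ hk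
  obtain ⟨p, q, hT, hS, hgen, e, he, he6⟩ := exists_config hD P.cls L hY hd hw P.prim P.type
  exact ⟨p, q, d, hd, e, he.1, hT, by simpa only [prod3, mul_assoc] using hgen, he.2.1.symm, he.2.2,
    fun i => ⟨(hS i).1.2.2, (hS i).2.2.2⟩, fun i => ⟨(he6 i).2.2.1, (he6 i).2.2.2⟩⟩

end Cfsg.Agent.H97.M24Two
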